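import Cfsg.Agent.FGS.Ord8.Defs
import Cfsg.Agent.CLAS.UniGen
import Cfsg.Agent.S0245
import Cfsg.Agent.S0246
import Cfsg.Agent.S2366
import Cfsg.Agent.S0247

set_option autoImplicit false
set_option linter.unusedSectionVars false

namespace CL.Ord8.Ls1b

open Subgroup Cfsg CL.MSS CL.Ord6

variable {G : Type*} [Group G] [Finite G] {F : Type} [Field F] [Fintype F]

/-! `PSp₄(2ⁿ)` and `PSU₃(q)` have elements of order greater than eight. -/

theorem psp4 (h : H8 G) [IsSimpleGroup G] {n : ℕ} (hF : Fintype.card F = 2 ^ n) (e : G ≃* PSp 2 F) : False := by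
  obtain ⟨n, rfl⟩ : ∃ m, n = m + 1 := ⟨n - 1, by
    have := Fintype.one_lt_card (α := F)
    rcases n with _ | n <;> simp_all⟩
  have c : center (Matrix.symplecticGroup (Fin 2) F) = ⊥ := by
    rw [← card_eq_one, Agent.S0246.result hF 2 (by norm_num)]
    exact (Nat.coprime_two_left.2 (Nat.Even.sub_odd Nat.one_le_two_pow (by simp [pow_succ]) odd_one))
  let f := e.trans ((QuotientGroup.quotientMulEquivOfEq c).trans QuotientGroup.quotientBot)
  rcases n with _ | n
  · obtain ⟨g⟩ := Agent.S0247.result hF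
    have := (f.trans g).symm.isSimpleGroup
    rcases (alternatingGroup.normal (α := Fin 6)).eq_bot_or_eq_top with k | k
    · exact absurd (k ▸ nat_card_alternatingGroup (α := Fin 6)) (by simp [Nat.factorial])
    · exact absurd (k ▸ alternatingGroup.index_eq_two (α := Fin 6)) (by simp)
  have d : 4 ^ (n + 2) + 1 ∣ Nat.card G := by
    rw [Nat.card_congr f.toEquiv, Agent.S0245.result hF 2, Finset.prod_range_succ]
    refine Dvd.dvd.mul_left (Dvd.dvd.mul_left ?_ _) _
    rw [← pow_mul, show (n + 1 + 1) * (2 * (1 + 1)) = 2 * (n + 2) * 2 by ring, pow_mul, pow_mul]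
    exact Dvd.intro _ (Nat.sq_sub_sq _ 1).symm
  have m3 : (4 ^ (n + 2) + 1) % 3 = 2 := by simp [Nat.add_mod, Nat.pow_mod]
  have m8 : (4 ^ (n + 2) + 1) % 8 = 1 := by rw [pow_add]; omega
  have m7 : (4 ^ (n + 2) + 1) % 7 ≠ 0 := by
    have : ∀ k, 4 ^ k % 7 = 1 ∨ 4 ^ k % 7 = 2 ∨ 4 ^ k % 7 = 4 := fun k => by
      induction k with
      | zero => simp
      | succ k ih => rw [pow_succ]; omega
    have := this (n + 2)
    omega
  have k := Nat.eq_prime_pow_of_unique_prime_dvd (p := 5) (Nat.succ_ne_zero (4 ^ (n + 2))) fun {p} hp c => by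
    rcases h.prime hp (c.trans d) with rfl | rfl | rfl | rfl <;> omega
  generalize (4 ^ (n + 2)).succ.primeFactorsList.length = j at k
  have : 5 ^ j % 24 = 1 ∨ 5 ^ j % 24 = 5 := by
    clear k
    induction j with
    | zero => simp
    | succ k ih => rw [pow_succ]; omega
  omega

theorem psu3 (h : H8 G) {q : ℕ} (h3 : 3 ≤ q) (hF : Fintype.card F = q ^ 2) (e : G ≃* PSU 3 F q) : False := by
  obtain ⟨p, _, n, hp, hn⟩ := FiniteField.card' F
  have := Fact.mk hp
  have pq : p ∣ q := hp.dvd_of_dvd_pow (hF ▸ hn ▸ dvd_pow_self p n.ne_zero)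
  by_cases p2 : p = 2
  swap
  · obtain ⟨g, hg⟩ := (Set.ext_iff.1 (Agent.S2366.result (F := F) p p2 q hF) _).2 (.inl (.inl (.inr dvd_rfl)))
    have a := hg ▸ h.equiv e g
    have := hp.two_le
    rcases (Nat.dvd_prime Nat.prime_three).1 (Nat.gcd_dvd_left 3 (q + 1)) with c | c
    · have := Nat.mul_le_mul (show 3 ≤ p by omega) (show 4 ≤ q + 1 by omega)
      rw [c] at a
      omega
    · have d : 3 ∣ q + 1 := c ▸ Nat.gcd_dvd_right 3 (q + 1)
      have p4 : p ≠ 4 := by rintro rfl; norm_num at hp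
      have p3 : p ≠ 3 := by rintro rfl; omega
      have := Nat.mul_le_mul (show 5 ≤ p by omega) (show 6 ≤ q + 1 by omega)
      rw [c] at a
      omega
  subst p2
  obtain ⟨i, -, hi⟩ := (Nat.dvd_prime_pow hp).1 (hn ▸ hF ▸ dvd_pow_self q two_ne_zero : q ∣ 2 ^ (n : ℕ))
  have q7 : q % 7 = 1 ∨ q % 7 = 2 ∨ q % 7 = 4 := by
    rw [hi]
    clear hi
    induction i with
    | zero => simp
    | succ k ih => rw [pow_succ]; omega
  have h1 := Uni.card_PSU hF (n := 3) (by norm_num)
  rw [← Nat.card_congr e.toEquiv] at h1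
  obtain ⟨k, rfl⟩ : ∃ k, q = k + 1 := ⟨q - 1, by omega⟩
  have h2 : (k * k + k + 1) ∣ Nat.gcd 3 (k + 1 + 1) * Nat.card G := by
    refine Nat.dvd_of_mul_dvd_mul_left (show 0 < k + 1 + 1 by omega) ?_
    rw [mul_left_comm, h1, Uni.guOrder]
    simp only [Finset.prod_range_succ, Finset.prod_range_zero]
    refine Dvd.dvd.mul_left (mul_dvd_mul (Dvd.dvd.mul_right (by simp) _) ?_) _
    rw [if_pos (by decide)]
    exact ⟨k + 2, by ring⟩
  have m : ∀ n, (k * k + k + 1) % n = (k % n * (k % n) + k % n + 1) % n := fun n => by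
    simp [Nat.add_mod, Nat.mul_mod]
  have n2 : ¬ 2 ∣ k * k + k + 1 := by
    rw [Nat.dvd_iff_mod_eq_zero, m]
    have := Nat.mod_lt k two_pos
    interval_cases k % 2 <;> simp
  have n5 : ¬ 5 ∣ k * k + k + 1 := by
    rw [Nat.dvd_iff_mod_eq_zero, m]
    have := Nat.mod_lt k (show 0 < 5 by omega)
    interval_cases k % 5 <;> simp
  have n7 : ¬ 7 ∣ k * k + k + 1 := by
    rw [Nat.dvd_iff_mod_eq_zero, m]
    rcases (by omega : k % 7 = 0 ∨ k % 7 = 1 ∨ k % 7 = 3) with c | c | c <;> simp [c]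
  have n9 : ¬ 9 ∣ k * k + k + 1 := by
    rw [Nat.dvd_iff_mod_eq_zero, m]
    have := Nat.mod_lt k (show 0 < 9 by omega)
    interval_cases k % 9 <;> simp
  have e3 := Nat.eq_prime_pow_of_unique_prime_dvd (p := 3) (Nat.succ_ne_zero (k * k + k)) fun {p} hp c => by
    rcases (Nat.Prime.dvd_mul hp).1 (c.trans h2) with d | d
    · exact (Nat.prime_dvd_prime_iff_eq hp Nat.prime_three).1 (d.trans (Nat.gcd_dvd_left _ _))
    · rcases h.prime hp d with rfl | rfl | rfl | rfl
      exacts [absurd c n2, rfl, absurd c n5, absurd c n7]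
  generalize (k * k + k).succ.primeFactorsList.length = j at e3
  have := Nat.mul_le_mul (show 2 ≤ k by omega) (show 2 ≤ k by omega)
  rcases j with _ | _ | j
  · omega
  · omega
  · exact n9 ⟨3 ^ j, e3.trans (by ring)⟩

end CL.Ord8.Ls1b
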